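import Mathlib
import Cfsg.Agent.Lib.Helper69.BG40.Defs
import Cfsg.Agent.Lib.Helper29.BG40.PKG1
import Cfsg.Agent.Lib.Helper24.PRank
import Cfsg.Agent.Lib.Helper47.BG.SigmaNe

/-!
# S1440 project (helper69), package PKE

If `M_σ` is abelian then it has rank exactly `2`.
-/

set_option autoImplicit false

namespace Cfsg.Agent.Lib.Helper29.BG40

open Cfsg Cfsg.Agent.Lib.Helper69.BG40

universe u

/-- Package PKE of the S1440 project. -/
theorem pkE : PKE.{u} := by
  intro G _ _ hG M hM p x D hL hab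
  have hp : p.Prime := hL.hp
  have hσM : sigmaCore M ≤ M := Cfsg.Agent.Lib.Helper67.BG.sigmaCore_le M
  have hcomm : ∀ a ∈ sigmaCore M, ∀ b ∈ sigmaCore M, a * b = b * a :=
    isMulCommutative_iff_of_setLike.mp hab
  have hxp : x ^ p = 1 := by rw [← hL.hxo]; exact pow_orderOf_eq_one x
  have hσD : sigmaCore M ≤ D := by
    refine le_trans ?_ hL.hCD
    intro a ha
    refine Subgroup.mem_inf.mpr ⟨hσM ha, ?_⟩
    rw [Subgroup.mem_centralizer_iff]
    intro y hy
    rw [Set.mem_singleton_iff] at hy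
    rw [hy]
    exact hcomm x hL.hxσ a ha
  constructor
  · intro q hq
    rw [Cfsg.Agent.Lib.Helper24.pRankLE_subgroup_iff]
    intro A hAH hAc hAe
    exact hL.hrk q hq A (hAH.trans hσD)
      (Cfsg.Agent.Lib.Helper10.isElementaryAbelian_iff.mpr ⟨hAc, hAe⟩)
  · intro hrk
    have h1 := hrk p hp
    rw [Cfsg.Agent.Lib.Helper24.pRankLE_subgroup_iff] at h1
    have hΩle : omegaZP p (sigmaCore M) ≤ sigmaCore M := fun a ha => ha.1
    have hΩ := (Cfsg.Agent.Lib.Helper10.isElementaryAbelian_iff.mp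
      (omegaZP_isElementaryAbelian p (sigmaCore M)))
    have hcard : Nat.card ↥(omegaZP p (sigmaCore M)) ≤ p ^ 1 :=
      h1 (omegaZP p (sigmaCore M)) hΩle hΩ.1 hΩ.2
    have hxΩ : x ∈ omegaZP p (sigmaCore M) :=
      ⟨hL.hxσ, fun b hb => hcomm b hb x hL.hxσ, hxp⟩
    have heq : Subgroup.zpowers x = omegaZP p (sigmaCore M) := by
      apply Subgroup.eq_of_le_of_card_ge (Subgroup.zpowers_le.mpr hxΩ)
      rw [Nat.card_zpowers, hL.hxo]
      rwa [pow_one] at hcard
    have hnorm : M ≤ Subgroup.normalizer ((Subgroup.zpowers x : Subgroup G) : Set G) := by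
      rw [heq]
      exact le_normalizer_omegaZP (Cfsg.Agent.Lib.Helper67.BG.sigmaCore_normalizer M)
    have hx1 : Subgroup.zpowers x ≠ ⊥ := by
      intro h
      have hx : x = 1 := Subgroup.zpowers_eq_bot.mp h
      have ho := hL.hxo
      rw [hx, orderOf_one] at ho
      exact hp.ne_one ho.symm
    have hN : Subgroup.normalizer ((Subgroup.zpowers x : Subgroup G) : Set G) = M :=
      Cfsg.Agent.Lib.Helper47.BG.normalizer_eq_of_coatom hG hM
        (Subgroup.zpowers_le.mpr (hσM hL.hxσ)) hx1 hnorm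
    apply hL.hnc
    rw [← hN]
    apply Cfsg.Agent.Lib.Helper53.le_normalizer_of_conj_mem
    intro g hg w hw
    obtain ⟨k, rfl⟩ := Subgroup.mem_zpowers_iff.mp hw
    have hgx : Commute g x := by
      have := Subgroup.mem_centralizer_iff.mp hg x (Set.mem_singleton x)
      exact this.symm
    have hgk : Commute g (x ^ k) := hgx.zpow_right k
    have : g * x ^ k * g⁻¹ = x ^ k := by
      rw [hgk.eq, mul_assoc, mul_inv_cancel, mul_one]
    rw [this]
    exact hw

end Cfsg.Agent.Lib.Helper29.BG40
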